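import Groth.Agent.Gaga.H973.TwEquiv
import Groth.Agent.Gaga.H975.AnSec

/-!
# Analytification of a cover and of a cocycle
-/

set_option autoImplicit false
set_option linter.dupNamespace false
set_option linter.unusedVariables false

open CategoryTheory TopologicalSpace Opposite AlgebraicGeometry

noncomputable section

namespace Groth.Agent.Gaga.H973.AnCoc

open Groth.Agent.Gaga.H975.ModSec Groth.Agent.Gaga.H973.Tw Groth.Agent.Gaga.H973.TwEquiv
open Groth.Agent.Gaga.H975.AnSec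

/-- The space of a scheme. -/
abbrev spc (X : Scheme.{0}) : TopCat.{0} := X.toTopCat

example (X : Scheme.{0}) : X.Modules = Mod (T := spc X) X.sheaf := rfl

variable {X : Scheme.{0}} [X.Over An.SC]

/-- The preimage in `X(ℂ)` of a cover of `X`. -/
def anCov (𝒰 : Cov (spc X)) : Cov (An.top X) where
  ι := 𝒰.ι
  U i := pre (𝒰.U i)
  cov x := 𝒰.cov (show An.Pts X from x).pt

/-- The holomorphic function on `W ⊆ V(ℂ)` of a regular function on `V`. -/
def pul {V : Opens (spc X)} {W : Opens (An.top X)} (h : W ≤ pre V) : O (T := spc X) X.sheaf V →+* O (An.hol X) W :=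
  (resO h).comp (toHol V)

theorem pul_resO {V V' : Opens (spc X)} (h : V' ≤ V) {W : Opens (An.top X)} (hW : W ≤ pre V')
    (r : O (T := spc X) X.sheaf V) : pul hW (resO h r) = pul (hW.trans (pre_mono h)) r := by
  change resO hW (toHol V' (resO h r)) = resO _ (toHol V r)
  rw [show toHol V' (resO h r) = resO (pre_mono h) (toHol V r) from toHol_res h r, resO_resO]

theorem resO_pul {V : Opens (spc X)} {W W' : Opens (An.top X)} (h : W ≤ pre V) (h' : W' ≤ W)
    (r : O (T := spc X) X.sheaf V) : resO h' (pul h r) = pul (h'.trans h) r := resO_resO _ _ _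

variable {𝒰 : Cov (spc X)}

theorem le_pre_inf {i j : 𝒰.ι} {W : Opens (An.top X)} (hi : W ≤ pre (𝒰.U i)) (hj : W ≤ pre (𝒰.U j)) :
    W ≤ pre (𝒰.U i ⊓ 𝒰.U j) := fun _ hx => ⟨hi hx, hj hx⟩

/-- The analytification of a cocycle. -/
def anCoc (c : Coc 𝒰 X.sheaf) : Coc (anCov 𝒰) (An.hol X) where
  g i j := pul (V := 𝒰.U i ⊓ 𝒰.U j) (W := (anCov 𝒰).U i ⊓ (anCov 𝒰).U j) (le_pre_inf inf_le_left inf_le_right)
    (c.g i j)
  g_self i := by rw [c.g_self i]; exact map_one _
  g_mul i j k W hi hj hk := by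
    have hW : W ≤ pre (𝒰.U i ⊓ 𝒰.U j ⊓ 𝒰.U k) := fun _ hx => ⟨⟨hi hx, hj hx⟩, hk hx⟩
    have h3 := congrArg (pul hW)
      (c.g_mul i j k (𝒰.U i ⊓ 𝒰.U j ⊓ 𝒰.U k) (inf_le_left.trans inf_le_left) (inf_le_left.trans inf_le_right)
        inf_le_right)
    rw [map_mul, pul_resO, pul_resO, pul_resO] at h3
    refine Eq.trans (congrArg₂ (· * ·) (resO_pul _ _ _) (resO_pul _ _ _)) (Eq.trans h3 (resO_pul _ _ _).symm)

theorem anCoc_G (c : Coc 𝒰 X.sheaf) (i j : 𝒰.ι) {V : Opens (spc X)} (hi : V ≤ 𝒰.U i) (hj : V ≤ 𝒰.U j)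
    {W : Opens (An.top X)} (h : W ≤ pre V) (hi' : W ≤ (anCov 𝒰).U i) (hj' : W ≤ (anCov 𝒰).U j) :
    (anCoc c).G i j hi' hj' = pul h (c.G i j hi hj) :=
  (resO_pul _ _ _).trans (pul_resO _ _ _).symm

/-- The analytification of a section of the twisting sheaf. -/
def anLSec {c : Coc 𝒰 X.sheaf} (ℓ : LSec c) : LSec (anCoc c) where
  l i := pul (V := 𝒰.U i) (W := (anCov 𝒰).U i) le_rfl (ℓ.l i)
  rel i j W hi hj := by
    have h3 := congrArg (pul (le_pre_inf hi hj))
      (ℓ.rel i j (𝒰.U i ⊓ 𝒰.U j) inf_le_left inf_le_right)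
    rw [map_mul, pul_resO, pul_resO] at h3
    refine Eq.trans (resO_pul _ _ _) (Eq.trans h3 (congrArg₂ (· * ·) ?_ (resO_pul _ _ _).symm))
    exact (anCoc_G c i j inf_le_left inf_le_right (le_pre_inf hi hj) hi hj).symm

end Groth.Agent.Gaga.H973.AnCoc
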