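import Groth.Agent.Gaga.H973.TwEquiv

/-!
# The cocycle of a line bundle with local generators

`L : Mod R`, `e i ∈ L(U i)` generators: `e_j = g_ij e_i`.  Sections `s` of `L` give `LSec`: `s = l_i e_i`.
-/

set_option autoImplicit false
set_option linter.dupNamespace false
set_option linter.unusedVariables false

open CategoryTheory TopologicalSpace Opposite

noncomputable section

namespace Groth.Agent.Gaga.H973.FrameCoc

open Groth.Agent.Gaga.H975.ModSec Groth.Agent.Gaga.H973.Tw Groth.Agent.Gaga.H973.TwEquiv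

variable {T : TopCat.{0}} {R : TopCat.Sheaf CommRingCat.{0} T}

/-- Local generators of a module over the members of a cover. -/
structure Fr (𝒰 : Cov T) (L : Mod R) where
  /-- the generators -/
  e : ∀ i, Sec L (𝒰.U i)
  bij : ∀ i (W : Opens T) (hi : W ≤ 𝒰.U i), Function.Bijective (fun a : O R W => a • res L hi (e i))

namespace Fr

variable {𝒰 : Cov T} {L : Mod R} (F : Fr 𝒰 L)

/-- The coordinate of a section with respect to the `i`-th generator. -/
def co (i : 𝒰.ι) {W : Opens T} (hi : W ≤ 𝒰.U i) (s : Sec L W) : O R W := ((F.bij i W hi).2 s).choose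

theorem co_smul (i : 𝒰.ι) {W : Opens T} (hi : W ≤ 𝒰.U i) (s : Sec L W) :
    F.co i hi s • res L hi (F.e i) = s := ((F.bij i W hi).2 s).choose_spec

theorem co_eq (i : 𝒰.ι) {W : Opens T} (hi : W ≤ 𝒰.U i) {s : Sec L W} {a : O R W}
    (h : a • res L hi (F.e i) = s) : F.co i hi s = a :=
  (F.bij i W hi).1 (by
    change F.co i hi s • res L hi (F.e i) = a • res L hi (F.e i)
    rw [co_smul, h])

theorem eq_of_smul (i : 𝒰.ι) {W : Opens T} (hi : W ≤ 𝒰.U i) {a b : O R W}
    (h : a • res L hi (F.e i) = b • res L hi (F.e i)) : a = b := (F.bij i W hi).1 h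

theorem resO_co (i : 𝒰.ι) {W W' : Opens T} (hi : W ≤ 𝒰.U i) (h : W' ≤ W) (s : Sec L W) :
    resO h (F.co i hi s) = F.co i (h.trans hi) (res L h s) := by
  symm
  refine F.co_eq i _ ?_
  rw [← res_res L hi h, ← res_smul, co_smul]

theorem co_add (i : 𝒰.ι) {W : Opens T} (hi : W ≤ 𝒰.U i) (s t : Sec L W) :
    F.co i hi (s + t) = F.co i hi s + F.co i hi t :=
  F.co_eq i hi (by rw [add_smul, co_smul, co_smul])

/-- The cocycle of a frame. -/
def coc : Coc 𝒰 R where
  g i j := F.co i inf_le_left (res L inf_le_right (F.e j))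
  g_self i := F.co_eq i _ (by rw [one_smul])
  g_mul i j k W hi hj hk := by
    rw [resO_co, resO_co, resO_co, res_res, res_res, res_res]
    refine (F.co_eq i _ ?_).symm
    rw [mul_comm, mul_smul, co_smul, co_smul]

theorem coc_G (i j : 𝒰.ι) {W : Opens T} (hi : W ≤ 𝒰.U i) (hj : W ≤ 𝒰.U j) :
    F.coc.G i j hi hj = F.co i hi (res L hj (F.e j)) := by
  change resO _ (F.co i inf_le_left (res L inf_le_right (F.e j))) = _
  rw [resO_co, res_res]

/-- `e_j = g_ij e_i`. -/
theorem res_e (i j : 𝒰.ι) {W : Opens T} (hi : W ≤ 𝒰.U i) (hj : W ≤ 𝒰.U j) :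
    res L hj (F.e j) = F.coc.G i j hi hj • res L hi (F.e i) := by
  rw [coc_G, co_smul]

/-- A global section of `L` gives a multiplication. -/
def lsec (s : Sec L ⊤) : LSec F.coc where
  l i := F.co i le_rfl (res L le_top s)
  rel i j W hi hj := by
    rw [resO_co, resO_co, coc_G, res_res, res_res]
    refine F.co_eq i _ ?_
    rw [mul_comm, mul_smul, co_smul, co_smul]

theorem lsec_l (s : Sec L ⊤) (i : 𝒰.ι) : (F.lsec s).l i = F.co i le_rfl (res L le_top s) := rfl

end Fr

end Groth.Agent.Gaga.H973.FrameCoc
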