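import Groth.Agent.Gaga.H974.AnStalk
import Groth.Agent.Gaga.H975.AnSec
import Groth.Agent.Gaga.H979.ThmA
import Groth.Prelude.Def_FlatMod2

/-!
# The analytification of a globally generated module is generated by global sections at every point
-/

set_option autoImplicit false
set_option linter.dupNamespace false
set_option linter.unusedVariables false

open CategoryTheory TopologicalSpace Opposite AlgebraicGeometry

noncomputable section

namespace Groth.Agent.Gaga.H973.GenAn

open Groth.Agent.Gaga.H975.ModSec Groth.Agent.Gaga.H975.AnSec Groth.Agent.Gaga.H986.Stalk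
open Groth.Agent.Gaga.H974.AnStalk

variable {X : Scheme.{0}} [X.Over An.SC]

theorem genAt_analytify (M : X.Modules) (x : An.Pts X)
    (h : Submodule.span (X.presheaf.stalk x.pt)
      (Set.range fun s : Γ(M, ⊤) => M.presheaf.germ ⊤ x.pt trivial s) = ⊤) :
    Groth.Agent.Gaga.H979.ThmA.GenAt (R := An.hol X) ((An.analytify X).obj M) x := by
  let S : Submodule (StO (An.hol X) x) (St (R := An.hol X) ((An.analytify X).obj M) x) :=
    Submodule.span (StO (An.hol X) x)
      (Set.range fun s : Sec ((An.analytify X).obj M) ⊤ => gm (R := An.hol X) ((An.analytify X).obj M) x ⊤ trivial s)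
  change S = ⊤
  have h1 : ∀ t : schStk M x, (show St (R := An.hol X) ((An.analytify X).obj M) x from can M x t) ∈ S := by
    intro t
    have ht : t ∈ Submodule.span (X.presheaf.stalk x.pt)
        (Set.range fun s : Γ(M, ⊤) => M.presheaf.germ ⊤ x.pt trivial s) := h ▸ Submodule.mem_top
    induction ht using Submodule.span_induction with
    | mem t ht =>
      obtain ⟨s, rfl⟩ := ht
      refine Submodule.subset_span ⟨an s, ?_⟩
      exact (can_germ M x ⊤ trivial s).symm
    | zero => rw [map_zero]; exact Submodule.zero_mem _
    | add a b _ _ ha hb => rw [map_add]; exact Submodule.add_mem _ ha hb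
    | smul r a _ ha =>
      rw [can_smul]
      exact Submodule.smul_mem S _ ha
  let S' : Submodule ((An.anSpace X).presheaf.stalk x) (anStk ((An.analytify X).obj M) x) := S
  have h2 : Submodule.span ((An.anSpace X).presheaf.stalk x) (Set.range (can M x)) ≤ S' :=
    Submodule.span_le.2 (by rintro _ ⟨t, rfl⟩; exact h1 t)
  rw [span_range_can M x] at h2
  exact eq_top_iff.2 h2

end Groth.Agent.Gaga.H973.GenAn
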