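import Groth.Agent.Gaga.H973.FrameCoc
import Groth.Agent.Gaga.H973.AnCoc
import Groth.Agent.Gaga.H988.PnPts2
import Groth.Agent.Ega2.TwistBasic

/-!
# The frame of `O(1)` on projective space

`cov n`: the cover `D₊(X_i)`; `fr n : Fr (cov n) (O(1))` with `e_i = X_i`; `frac a i`: the function `a/X_i`
on `D₊(X_i)`; `co_sec1`: it is the `i`-th coordinate of the section `a` of `O(1)`.
-/

set_option autoImplicit false
set_option linter.dupNamespace false
set_option linter.unusedVariables false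

open CategoryTheory TopologicalSpace Opposite AlgebraicGeometry

noncomputable section

namespace Groth.Agent.Gaga.H973.PnFr

open Groth.Agent.Gaga.H975.ModSec Groth.Agent.Gaga.H973.Tw Groth.Agent.Gaga.H973.TwEquiv
open Groth.Agent.Gaga.H973.FrameCoc Groth.Agent.Gaga.H973.AnCoc
open Groth.Agent.Gaga.H988.PnPts CohB1 HomogeneousLocalization

variable (n : ℕ)

/-- Projective space over `ℂ`. -/
abbrev P : Scheme.{0} := ProjSpace n ℂ

/-- The standard cover. -/
def cov : Cov (spc (P n)) where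
  ι := Fin (n + 1)
  U i := Dp (MvPolynomial.X i : MvPolynomial (Fin (n + 1)) ℂ)
  cov x := by
    have h := Groth.Agent.CohqB.P1Charts.iSup_D n ℂ
    have h1 : (show (P n) from x) ∈ (⊤ : (P n).Opens) := trivial
    rw [← h] at h1
    exact Opens.mem_iSup.1 h1

/-- The sheaf `O(1)`. -/
abbrev L1 : Mod (T := spc (P n)) (P n).sheaf := Twist.twistProjSpace n ℂ 1

/-- A homogeneous element of degree one as a section of `O(1)`. -/
def sec1 (a : polyGrading n ℂ 1) (U : Opens (spc (P n))) : Sec (L1 n) U :=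
  Groth.Agent.Ega2.TwistBasic.fracSec (𝒜 := polyGrading n ℂ) 1 a (⟨1, SetLike.GradedOne.one_mem⟩ : polyGrading n ℂ 0)
    (by simp) U
    (fun x _ h => (x : ProjectiveSpectrum (polyGrading n ℂ)).isPrime.ne_top ((Ideal.eq_top_iff_one _).mpr h))

theorem res_sec1 (a : polyGrading n ℂ 1) {U V : Opens (spc (P n))} (h : V ≤ U) :
    res (L1 n) h (sec1 n a U) = sec1 n a V := rfl

/-- The coordinate `X_i`. -/
def Xc (i : Fin (n + 1)) : polyGrading n ℂ 1 := ⟨MvPolynomial.X i, MvPolynomial.isHomogeneous_X _ _⟩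

/-- The frame of `O(1)`. -/
def fr : Fr (cov n) (L1 n) where
  e i := sec1 n (Xc n i) _
  bij i W hi := by
    rw [res_sec1]
    exact Groth.Agent.Ega2.TwistBasic.bijective_smul_fracSec (𝒜 := polyGrading n ℂ) 1 (Xc n i) _ _ W _
      (fun x hx => hi hx)

theorem deg_mem (a : polyGrading n ℂ 1) : (a.1 : MvPolynomial (Fin (n + 1)) ℂ) ∈ polyGrading n ℂ (1 • 1) := by
  rw [one_smul]; exact a.2

/-- The function `a / X_i` on `D₊(X_i)`. -/
def frac (a : polyGrading n ℂ 1) (i : Fin (n + 1)) : O (T := spc (P n)) (P n).sheaf ((cov n).U i) :=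
  (sec (MvPolynomial.X i : MvPolynomial (Fin (n + 1)) ℂ)).hom
    (Away.mk _ (Groth.Agent.CohqB.ProjBC.X_mem (A := ℂ) n i) 1 a.1 (deg_mem n a))

theorem frac_smul (a : polyGrading n ℂ 1) (i : Fin (n + 1)) :
    frac n a i • sec1 n (Xc n i) ((cov n).U i) = sec1 n a ((cov n).U i) := by
  refine Subtype.ext (funext fun y => Subtype.ext ?_)
  refine (Groth.Agent.Ega2.TwistBasic.smulS_val (𝒜 := polyGrading n ℂ) 1 (frac n a i) (sec1 n (Xc n i) ((cov n).U i))
    y).trans ?_
  have h1 : ((frac n a i).1 y).val = (Localization.mk a.1 ⟨(MvPolynomial.X i) ^ 1,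
      by rw [pow_one]; exact y.2⟩ : Localization.AtPrime _) := rfl
  rw [h1]
  change Localization.mk a.1 _ * Localization.mk (MvPolynomial.X i) _ = Localization.mk a.1 _
  rw [Localization.mk_mul, Localization.mk_eq_mk_iff, Localization.r_iff_exists]
  refine ⟨1, ?_⟩
  simp only [OneMemClass.coe_one, one_mul, Submonoid.coe_mul, pow_one, mul_one]
  ring

theorem co_sec1 (a : polyGrading n ℂ 1) (i : Fin (n + 1)) :
    (fr n).co i le_rfl (sec1 n a ((cov n).U i)) = frac n a i :=
  (fr n).co_eq i le_rfl (frac_smul n a i)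

theorem lsec_l (a : polyGrading n ℂ 1) (i : Fin (n + 1)) :
    ((fr n).lsec (sec1 n a ⊤)).l i = frac n a i := by
  rw [Fr.lsec_l, res_sec1, co_sec1]

end Groth.Agent.Gaga.H973.PnFr
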