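import Groth.Agent.Gaga.H973.TwStalk
import Groth.Agent.Gaga.H973.PnFr
import Groth.Agent.Gaga.H979.ThmA
import Groth.Agent.Gaga.H980.Completion
import Groth.Agent.Gaga.H988.PnInst

/-!
# The twist on `P^n(ℂ)` in the form of Theorem A
-/

set_option autoImplicit false
set_option linter.dupNamespace false
set_option linter.unusedVariables false

open CategoryTheory TopologicalSpace Opposite AlgebraicGeometry

noncomputable section

namespace Groth.Agent.Gaga.H973.PnTw

open Groth.Agent.Gaga.H975.ModSec Groth.Agent.Gaga.H975.AnSec Groth.Agent.Gaga.H973.Tw Groth.Agent.Gaga.H973.TwEquiv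
open Groth.Agent.Gaga.H973.FrameCoc Groth.Agent.Gaga.H973.AnCoc Groth.Agent.Gaga.H973.PnFr Groth.Agent.Gaga.H973.TwStalk
open Groth.Agent.Gaga.H986.Stalk
open Groth.Agent.Gaga.H988.PnPts Groth.Agent.Gaga.H988.PnPts2 Groth.Agent.Gaga.H988.PnInst CohB1

section val

variable {X : Scheme.{0}} [X.Over An.SC]

/-- The value of a germ. -/
def vl (x : An.Pts X) : StO (An.hol X) x →+* ℂ := Groth.Agent.Gaga.H980.Completion.val x

theorem vl_gmO (x : An.Pts X) (W : Opens (An.top X)) (hx : (show An.top X from x) ∈ W) (g : O (An.hol X) W) :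
    vl x (gmO (An.hol X) x W hx g) = g.1 ⟨x, hx⟩ := by
  have h := Groth.Agent.Gaga.H980.Completion.val_eq (Groth.Agent.Gaga.H990.Stalk.toGerm_germ (x := x) hx g)
  refine h.trans ?_
  exact Groth.Agent.Gaga.H990.ChartAt.ext0_of_mem _ _

theorem isUnit_of_vl {x : An.Pts X} {b : StO (An.hol X) x} (h : vl x b ≠ 0) : IsUnit b :=
  Groth.Agent.Gaga.H980.Completion.isUnit_of_val_ne_zero h

theorem mem_jacobson_of_vl {x : An.Pts X} {b : StO (An.hol X) x} (h : vl x b = 0) :
    b ∈ Ideal.jacobson (⊥ : Ideal (StO (An.hol X) x)) := by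
  rw [Ideal.mem_jacobson_bot]
  intro y
  refine isUnit_of_vl ?_
  rw [map_add, map_mul, h, zero_mul, zero_add, map_one]
  exact one_ne_zero

end val

variable (n : ℕ)

/-- The linear form `∑ a_j X_j`. -/
def form (a : Fin (n + 1) → ℂ) : polyGrading n ℂ 1 := ∑ j, a j • Xc n j

theorem evA_form (χ : ℂ →ₐ[ℂ] ℂ) (z a : Fin (n + 1) → ℂ) : evA χ z (form n a).1 = ∑ j, a j * z j := by
  unfold form
  rw [Submodule.coe_sum, map_sum]
  refine Finset.sum_congr rfl fun j _ => ?_
  rw [Submodule.coe_smul, MvPolynomial.smul_eq_C_mul, map_mul, evA_C]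
  change χ (a j) * evA χ z (MvPolynomial.X j) = _
  rw [evA_X]
  congr 1
  exact congrArg (fun f : ℂ →ₐ[ℂ] ℂ => f (a j)) (Subsingleton.elim χ (AlgHom.id ℂ ℂ))

/-- The cocycle of `O(1)^an`. -/
def cA : Coc (anCov (cov n)) (An.hol (P n)) := anCoc (fr n).coc

/-- The linear form as a section of `O(1)^an`. -/
def lA (a : Fin (n + 1) → ℂ) : LSec (cA n) := anLSec ((fr n).lsec (sec1 n (form n a) ⊤))

theorem lA_l (a : Fin (n + 1) → ℂ) (i : Fin (n + 1)) :
    (lA n a).l i = toHol (X := P n) ((cov n).U i) (frac n (form n a) i) := by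
  refine (resO_self (R := An.hol (P n)) (U := pre ((cov n).U i)) le_rfl
    (toHol (X := P n) ((cov n).U i) (((fr n).lsec (sec1 n (form n a) ⊤)).l i))).trans ?_
  exact congrArg (toHol (X := P n) ((cov n).U i)) (lsec_l n (form n a) i)

/-- Homogeneous coordinates of a point. -/
def hc (x : An.Pts (P n)) : Fin (n + 1) → ℂ := (exists_pnt' x).choose

theorem hc_ne (x : An.Pts (P n)) : hc n x ≠ 0 := (exists_pnt' x).choose_spec.choose

theorem eq_pnt (x : An.Pts (P n)) : x = pnt (base x) (hc n x) (hc_ne n x) := (exists_pnt' x).choose_spec.choose_spec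

theorem vl_lA (a : Fin (n + 1) → ℂ) (i : Fin (n + 1)) (x : An.Pts (P n)) (hx : (show An.top (P n) from x) ∈ (anCov (cov n)).U i) :
    vl x (gmO (An.hol (P n)) x _ hx ((lA n a).l i)) = (∑ j, a j * hc n x j) / hc n x i := by
  rw [vl_gmO, lA_l]
  change An.Pts.ev x _ hx (frac n (form n a) i) = _
  have key : ∀ (y : An.Pts (P n)) (z : Fin (n + 1) → ℂ) (hz : z ≠ 0) (χ : ℂ →ₐ[ℂ] ℂ) (h : y = pnt χ z hz)
      (hy : y.pt ∈ (cov n).U i), An.Pts.ev y _ hy (frac n (form n a) i) = (∑ j, a j * z j) / z i := by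
    intro y z hz χ h hy
    subst h
    refine (ev_pnt χ z hz (Groth.Agent.CohqB.ProjBC.X_mem (A := ℂ) n i) one_pos hy 1 _ (deg_mem n (form n a))).trans ?_
    rw [evA_form, evA_X, pow_one]
  exact key x (hc n x) (hc_ne n x) (base x) (eq_pnt n x) hx

theorem hc_ne_zero (i : Fin (n + 1)) (x : An.Pts (P n)) (hx : (show An.top (P n) from x) ∈ (anCov (cov n)).U i) :
    hc n x i ≠ 0 := by
  have h1 : x.pt ∈ Dp (MvPolynomial.X i : MvPolynomial (Fin (n + 1)) ℂ) := hx
  have key : ∀ (y : An.Pts (P n)) (z : Fin (n + 1) → ℂ) (hz : z ≠ 0) (χ : ℂ →ₐ[ℂ] ℂ) (h : y = pnt χ z hz)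
      (hy : y.pt ∈ Dp (MvPolynomial.X i : MvPolynomial (Fin (n + 1)) ℂ)), z i ≠ 0 := by
    intro y z hz χ h hy
    subst h
    exact (mem_X χ z hz i).1 hy
  exact key x (hc n x) (hc_ne n x) (base x) (eq_pnt n x) h1

/-- The functional `a ↦ a(z)`. -/
def phi (z : Fin (n + 1) → ℂ) : (Fin (n + 1) → ℂ) →ₗ[ℂ] ℂ where
  toFun a := ∑ j, a j * z j
  map_add' a b := by simp only [Pi.add_apply, add_mul, Finset.sum_add_distrib]
  map_smul' r a := by simp only [Pi.smul_apply, smul_eq_mul, RingHom.id_apply, Finset.mul_sum, mul_assoc]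

theorem phi_single (z : Fin (n + 1) → ℂ) (i : Fin (n + 1)) : phi n z (Pi.single i 1) = z i := by
  change ∑ j, (Pi.single i (1 : ℂ) : Fin (n + 1) → ℂ) j * z j = z i
  rw [Finset.sum_eq_single i]
  · rw [Pi.single_eq_same, one_mul]
  · intro j _ hj
    rw [Pi.single_eq_of_ne hj, zero_mul]
  · intro h; exact absurd (Finset.mem_univ i) h

theorem phi_ne {z : Fin (n + 1) → ℂ} (hz : z ≠ 0) : phi n z ≠ 0 := by
  obtain ⟨i, hi⟩ := Function.ne_iff.1 hz
  intro h
  apply hi
  rw [← phi_single n z i, h]; rfl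

/-- The forms vanishing at a point. -/
def perp (x : An.Pts (P n)) : Submodule ℂ (Fin (n + 1) → ℂ) := LinearMap.ker (phi n (hc n x))

theorem mem_perp (x : An.Pts (P n)) (a : Fin (n + 1) → ℂ) : a ∈ perp n x ↔ ∑ j, a j * hc n x j = 0 := Iff.rfl

theorem perp_inj (x y : An.Pts (P n)) (h : perp n x = perp n y) : x = y := by
  obtain ⟨i, hi⟩ := Function.ne_iff.1 (hc_ne n x)
  have hi : hc n x i ≠ 0 := hi
  have h1 : ∀ j, hc n x j * hc n y i = hc n x i * hc n y j := by
    intro j
    have h2 : (hc n x j • Pi.single i 1 - hc n x i • Pi.single j 1 : Fin (n + 1) → ℂ) ∈ perp n x := by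
      change phi n (hc n x) _ = 0
      rw [map_sub, map_smul, map_smul, phi_single, phi_single, smul_eq_mul, smul_eq_mul]
      ring
    rw [h] at h2
    change phi n (hc n y) _ = 0 at h2
    rw [map_sub, map_smul, map_smul, phi_single, phi_single, smul_eq_mul, smul_eq_mul, sub_eq_zero] at h2
    exact h2
  have h3 : hc n y i ≠ 0 := by
    intro h0
    apply hc_ne n y
    funext j
    have := h1 j
    rw [h0, mul_zero] at this
    exact (mul_eq_zero.1 this.symm).resolve_left hi
  rw [eq_pnt n x, eq_pnt n y, pnt_eq_iff]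
  refine ⟨Subsingleton.elim _ _, hc n y i / hc n x i, div_ne_zero h3 hi, ?_⟩
  funext j
  have := h1 j
  simp only [Pi.smul_apply, smul_eq_mul]
  field_simp
  linear_combination -this

theorem finrank_perp (x : An.Pts (P n)) :
    Module.finrank ℂ (perp n x) + 1 = Module.finrank ℂ (Fin (n + 1) → ℂ) := by
  have h1 := LinearMap.finrank_range_add_finrank_ker (phi n (hc n x))
  have h2 : LinearMap.range (phi n (hc n x)) = ⊤ := LinearMap.range_eq_top.2 (LinearMap.surjective (phi_ne n (hc_ne n x)))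
  rw [h2, finrank_top, Module.finrank_self] at h1
  unfold perp
  omega

/-- The twist on `P^n(ℂ)`. -/
def W : Groth.Agent.Gaga.H979.ThmA.Tw (An.hol (P n)) (Fin (n + 1) → ℂ) where
  e := twEquiv (isInv_inv (cA n))
  m a N := mulHom (lA n a) N
  nat a M N f := mulHom_naturality (lA n a) f
  comm a N := twMap_mulHom (lA n a) N
  perp x := perp n x
  perp_inj x y h := perp_inj n x y h
  finrank_perp x := finrank_perp n x
  bij x a ha N := by
    obtain ⟨i, hi⟩ := (anCov (cov n)).cov x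
    refine bijective_of_isUnit (lA n a) N i hi (isUnit_of_vl ?_)
    rw [vl_lA]
    exact div_ne_zero (fun h => ha h) (hc_ne_zero n i x hi)
  I x := Ideal.jacobson ⊥
  jac x := le_rfl
  small x a ha N := by
    obtain ⟨i, hi⟩ := (anCov (cov n)).cov x
    refine range_le (lA n a) N i hi _ (mem_jacobson_of_vl ?_)
    rw [vl_lA, (mem_perp n x a).1 ha, zero_div]

theorem W_functor : (W n).e.functor = Tw (cA n) := rfl

theorem fp_F {N : An.AnMod (P n)} (h : N.IsFinitePresentation) :
    SheafOfModules.IsFinitePresentation ((W n).e.functor.obj N) :=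
  isFinitePresentation_tw h

end Groth.Agent.Gaga.H973.PnTw
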