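import Groth.Agent.Gaga.H975.ModSec

/-!
# Twisting sheaves of modules by a Čech 1-cocycle of units

`Cov T`: an open cover; `Coc 𝒰 R`: a cocycle of units `g i j ∈ O(U i ∩ U j)`;
`Tw c : Mod R ⥤ Mod R`, `(Tw N)(V) = {(s_i), s_i ∈ N(V ∩ U_i), s_i = g_ij s_j}`.
-/

set_option autoImplicit false
set_option linter.dupNamespace false
set_option linter.unusedVariables false

open CategoryTheory TopologicalSpace Opposite

noncomputable section

namespace Groth.Agent.Gaga.H973.Tw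

open Groth.Agent.Gaga.H975.ModSec

variable {T : TopCat.{0}}

/-- An open cover. -/
structure Cov (T : TopCat.{0}) where
  /-- index type -/
  ι : Type
  /-- the opens -/
  U : ι → Opens T
  cov : ∀ x : T, ∃ i, x ∈ U i

variable {R : TopCat.Sheaf CommRingCat.{0} T}

theorem Cov.le_iSup_inf (𝒰 : Cov T) (V : Opens T) : V ≤ ⨆ i, V ⊓ 𝒰.U i := by
  intro x hx
  obtain ⟨i, hi⟩ := 𝒰.cov x
  exact Opens.mem_iSup.2 ⟨i, hx, hi⟩

/-- Two sections of `N` over `V` agreeing on all opens contained in members of the cover are equal. -/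
theorem Cov.eq_of (𝒰 : Cov T) (N : Mod R) {V : Opens T} (s t : Sec N V)
    (h : ∀ i (W : Opens T) (hV : W ≤ V) (_ : W ≤ 𝒰.U i), res N hV s = res N hV t) : s = t :=
  eq_of_locally N (fun i => V ⊓ 𝒰.U i) V (𝒰.le_iSup_inf V) (fun _ => inf_le_left) s t
    fun i => h i _ inf_le_left inf_le_right

/-- A cocycle of units. -/
structure Coc (𝒰 : Cov T) (R : TopCat.Sheaf CommRingCat.{0} T) where
  /-- the units -/
  g : ∀ i j, O R (𝒰.U i ⊓ 𝒰.U j)
  g_self : ∀ i, g i i = 1
  g_mul : ∀ i j k (W : Opens T) (hi : W ≤ 𝒰.U i) (hj : W ≤ 𝒰.U j) (hk : W ≤ 𝒰.U k),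
    resO (le_inf hi hj) (g i j) * resO (le_inf hj hk) (g j k) = resO (le_inf hi hk) (g i k)

variable {𝒰 : Cov T}

namespace Coc

/-- The value of the cocycle on an open contained in both members. -/
def G (c : Coc 𝒰 R) (i j : 𝒰.ι) {W : Opens T} (hi : W ≤ 𝒰.U i) (hj : W ≤ 𝒰.U j) : O R W :=
  resO (le_inf hi hj) (c.g i j)

variable (c : Coc 𝒰 R)

theorem resO_G (i j : 𝒰.ι) {W W' : Opens T} (hi : W ≤ 𝒰.U i) (hj : W ≤ 𝒰.U j) (h : W' ≤ W) :
    resO h (c.G i j hi hj) = c.G i j (h.trans hi) (h.trans hj) := by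
  unfold G
  rw [resO_resO]

theorem G_self (i : 𝒰.ι) {W : Opens T} (hi hi' : W ≤ 𝒰.U i) : c.G i i hi hi' = 1 := by
  unfold G
  rw [c.g_self, map_one]

theorem G_mul (i j k : 𝒰.ι) {W : Opens T} (hi : W ≤ 𝒰.U i) (hj : W ≤ 𝒰.U j) (hk : W ≤ 𝒰.U k) :
    c.G i j hi hj * c.G j k hj hk = c.G i k hi hk := c.g_mul i j k W hi hj hk

theorem G_symm (i j : 𝒰.ι) {W : Opens T} (hi : W ≤ 𝒰.U i) (hj : W ≤ 𝒰.U j) :
    c.G i j hi hj * c.G j i hj hi = 1 := by rw [G_mul, G_self]

/-- The inverse cocycle. -/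
def inv : Coc 𝒰 R where
  g i j := c.G j i inf_le_right inf_le_left
  g_self i := c.G_self i _ _
  g_mul i j k W hi hj hk := by
    rw [resO_G, resO_G, resO_G, mul_comm, G_mul]

theorem inv_G (i j : 𝒰.ι) {W : Opens T} (hi : W ≤ 𝒰.U i) (hj : W ≤ 𝒰.U j) :
    c.inv.G i j hi hj = c.G j i hj hi := by
  change resO _ (c.G j i inf_le_right inf_le_left) = _
  rw [resO_G]

theorem inv_inv : c.inv.inv = c := by
  cases c with
  | mk g h1 h2 =>
    have : ∀ i j, (Coc.mk g h1 h2).inv.inv.g i j = g i j := by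
      intro i j
      change (Coc.mk g h1 h2).inv.G j i inf_le_right inf_le_left = _
      rw [inv_G]
      change resO _ (g i j) = g i j
      rw [resO_self]
    have h : (Coc.mk g h1 h2).inv.inv.g = g := funext fun i => funext fun j => this i j
    generalize (Coc.mk g h1 h2).inv.inv = d at h
    cases d with
    | mk g' h1' h2' =>
      cases h
      rfl

end Coc

variable (c : Coc 𝒰 R)

/-- Compatible families. -/
def twSubgroup (N : Mod R) (V : Opens T) : AddSubgroup (∀ i, Sec N (V ⊓ 𝒰.U i)) where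
  carrier := {s | ∀ i j (W : Opens T) (hV : W ≤ V) (hi : W ≤ 𝒰.U i) (hj : W ≤ 𝒰.U j),
    res N (le_inf hV hi) (s i) = c.G i j hi hj • res N (le_inf hV hj) (s j)}
  zero_mem' := fun i j W hV hi hj => by simp
  add_mem' := by
    intro s t hs ht i j W hV hi hj
    simp only [Pi.add_apply, map_add, smul_add]
    rw [hs i j W hV hi hj, ht i j W hV hi hj]
  neg_mem' := by
    intro s hs i j W hV hi hj
    simp only [Pi.neg_apply, map_neg, smul_neg]
    rw [hs i j W hV hi hj]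

/-- Sections of the twist. -/
def TwSec (N : Mod R) (V : Opens T) : Type := ↥(twSubgroup c N V)

instance (N : Mod R) (V : Opens T) : AddCommGroup (TwSec c N V) :=
  inferInstanceAs (AddCommGroup ↥(twSubgroup c N V))

namespace TwSec

variable {c} {N : Mod R} {V : Opens T}

/-- The `i`-th component. -/
def ap (s : TwSec c N V) (i : 𝒰.ι) : Sec N (V ⊓ 𝒰.U i) := s.1 i

theorem ext' {s t : TwSec c N V} (h : ∀ i, s.ap i = t.ap i) : s = t := Subtype.ext (funext h)

/-- The `i`-th component on smaller opens. -/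
def at' (s : TwSec c N V) (i : 𝒰.ι) (W : Opens T) (hV : W ≤ V) (hi : W ≤ 𝒰.U i) : Sec N W :=
  res N (le_inf hV hi) (s.ap i)

theorem at_rel (s : TwSec c N V) (i j : 𝒰.ι) (W : Opens T) (hV : W ≤ V) (hi : W ≤ 𝒰.U i) (hj : W ≤ 𝒰.U j) :
    s.at' i W hV hi = c.G i j hi hj • s.at' j W hV hj := s.2 i j W hV hi hj

theorem res_at (s : TwSec c N V) (i : 𝒰.ι) {W W' : Opens T} (hV : W ≤ V) (hi : W ≤ 𝒰.U i) (h : W' ≤ W) :
    res N h (s.at' i W hV hi) = s.at' i W' (h.trans hV) (h.trans hi) := by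
  unfold at'
  rw [res_res]

theorem ap_eq_at (s : TwSec c N V) (i : 𝒰.ι) : s.ap i = s.at' i (V ⊓ 𝒰.U i) inf_le_left inf_le_right := by
  unfold at'
  rw [res_self]

theorem at_add (s t : TwSec c N V) (i : 𝒰.ι) (W : Opens T) (hV : W ≤ V) (hi : W ≤ 𝒰.U i) :
    (s + t).at' i W hV hi = s.at' i W hV hi + t.at' i W hV hi := map_add _ _ _

theorem at_zero (i : 𝒰.ι) (W : Opens T) (hV : W ≤ V) (hi : W ≤ 𝒰.U i) :
    (0 : TwSec c N V).at' i W hV hi = 0 := map_zero _

theorem ext_at {s t : TwSec c N V}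
    (h : ∀ i (W : Opens T) (hV : W ≤ V) (hi : W ≤ 𝒰.U i), s.at' i W hV hi = t.at' i W hV hi) : s = t :=
  ext' fun i => by rw [ap_eq_at, ap_eq_at]; exact h i _ _ _

/-- It is enough to compare one component near each point. -/
theorem ext_loc {s t : TwSec c N V}
    (h : ∀ i (W : Opens T) (hV : W ≤ V) (hi : W ≤ 𝒰.U i), ∃ j, ∃ hj : W ≤ 𝒰.U j,
      s.at' j W hV hj = t.at' j W hV hj) : s = t := by
  refine ext_at fun i W hV hi => ?_
  obtain ⟨j, hj, e⟩ := h i W hV hi
  rw [at_rel s i j W hV hi hj, at_rel t i j W hV hi hj, e]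

/-- Constructor. -/
def mk' (f : ∀ i (W : Opens T), W ≤ V → W ≤ 𝒰.U i → Sec N W)
    (hres : ∀ i (W W' : Opens T) (hV : W ≤ V) (hi : W ≤ 𝒰.U i) (h : W' ≤ W),
      res N h (f i W hV hi) = f i W' (h.trans hV) (h.trans hi))
    (hrel : ∀ i j (W : Opens T) (hV : W ≤ V) (hi : W ≤ 𝒰.U i) (hj : W ≤ 𝒰.U j),
      f i W hV hi = c.G i j hi hj • f j W hV hj) : TwSec c N V :=
  ⟨fun i => f i (V ⊓ 𝒰.U i) inf_le_left inf_le_right, fun i j W hV hi hj => by
    rw [hres, hres, hrel i j]⟩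

theorem at_mk' (f : ∀ i (W : Opens T), W ≤ V → W ≤ 𝒰.U i → Sec N W)
    (hres : ∀ i (W W' : Opens T) (hV : W ≤ V) (hi : W ≤ 𝒰.U i) (h : W' ≤ W),
      res N h (f i W hV hi) = f i W' (h.trans hV) (h.trans hi))
    (hrel : ∀ i j (W : Opens T) (hV : W ≤ V) (hi : W ≤ 𝒰.U i) (hj : W ≤ 𝒰.U j),
      f i W hV hi = c.G i j hi hj • f j W hV hj) (i : 𝒰.ι) (W : Opens T) (hV : W ≤ V) (hi : W ≤ 𝒰.U i) :
    (mk' (c := c) f hres hrel).at' i W hV hi = f i W hV hi := hres i _ W _ _ (le_inf hV hi)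

/-- Scalar multiplication. -/
def smulAux (r : O R V) (s : TwSec c N V) : TwSec c N V :=
  mk' (fun i W hV hi => resO hV r • s.at' i W hV hi)
    (fun i W W' hV hi h => by rw [res_smul, resO_resO, res_at])
    (fun i j W hV hi hj => by rw [at_rel s i j, smul_smul, smul_smul, mul_comm])

instance : SMul (O R V) (TwSec c N V) := ⟨smulAux⟩

theorem at_smul (r : O R V) (s : TwSec c N V) (i : 𝒰.ι) (W : Opens T) (hV : W ≤ V) (hi : W ≤ 𝒰.U i) :
    (r • s).at' i W hV hi = resO hV r • s.at' i W hV hi := by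
  change (smulAux r s).at' i W hV hi = _
  unfold smulAux
  rw [at_mk']

instance : Module (O R V) (TwSec c N V) where
  one_smul s := ext_at fun i W hV hi => by rw [at_smul, map_one, one_smul]
  mul_smul a b s := ext_at fun i W hV hi => by rw [at_smul, at_smul, at_smul, map_mul, mul_smul]
  smul_zero r := ext_at fun i W hV hi => by rw [at_smul, at_zero, smul_zero]
  smul_add r s t := ext_at fun i W hV hi => by
    rw [at_smul, at_add, at_add, at_smul, at_smul, smul_add]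
  add_smul r r' s := ext_at fun i W hV hi => by
    rw [at_smul, at_add, at_smul, at_smul, map_add, add_smul]
  zero_smul s := ext_at fun i W hV hi => by rw [at_smul, at_zero, map_zero, zero_smul]

/-- Restriction, as a function. -/
def rstFun {V' : Opens T} (h : V' ≤ V) (s : TwSec c N V) : TwSec c N V' :=
  mk' (fun i W hV hi => s.at' i W (hV.trans h) hi) (fun i W W' hV hi h' => res_at _ _ _ _ _)
    (fun i j W hV hi hj => at_rel _ _ _ _ _ _ _)

theorem at_rstFun {V' : Opens T} (h : V' ≤ V) (s : TwSec c N V) (i : 𝒰.ι) (W : Opens T) (hV : W ≤ V')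
    (hi : W ≤ 𝒰.U i) : (rstFun h s).at' i W hV hi = s.at' i W (hV.trans h) hi := by
  unfold rstFun
  rw [at_mk']

/-- Restriction. -/
def rst {V' : Opens T} (h : V' ≤ V) : TwSec c N V →+ TwSec c N V' where
  toFun s := rstFun h s
  map_zero' := ext_at fun i W hV hi => by rw [at_rstFun, at_zero, at_zero]
  map_add' s t := ext_at fun i W hV hi => by rw [at_rstFun, at_add, at_add, at_rstFun, at_rstFun]

theorem at_rst {V' : Opens T} (h : V' ≤ V) (s : TwSec c N V) (i : 𝒰.ι) (W : Opens T) (hV : W ≤ V')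
    (hi : W ≤ 𝒰.U i) : (rst h s).at' i W hV hi = s.at' i W (hV.trans h) hi := at_rstFun h s i W hV hi

end TwSec

/-- The data of the twist. -/
def twData (N : Mod R) : Data R where
  S := TwSec c N
  r h := TwSec.rst h
  r_self h s := TwSec.ext_at fun i W hV hi => by rw [TwSec.at_rst]
  r_r h h' s := TwSec.ext_at fun i W hV hi => by rw [TwSec.at_rst, TwSec.at_rst, TwSec.at_rst]
  r_smul h a s := TwSec.ext_at fun i W hV hi => by
    rw [TwSec.at_rst, TwSec.at_smul, TwSec.at_smul, TwSec.at_rst, resO_resO]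
  ext {ι} U s t h := TwSec.ext_at fun i W hV hi => by
    refine eq_of_locally N (fun k => W ⊓ U k) W ?_ (fun k => inf_le_left) _ _ fun k => ?_
    · rw [← inf_iSup_eq]; exact le_inf le_rfl hV
    · rw [TwSec.res_at, TwSec.res_at]
      have := congrArg (fun x : TwSec c N (U k) => x.at' i (W ⊓ U k) inf_le_right (inf_le_left.trans hi)) (h k)
      simpa only [TwSec.at_rst] using this
  glue {ι} U s h := by
    have hs : ∀ k l i (W : Opens T) (hk : W ≤ U k) (hl : W ≤ U l) (hi : W ≤ 𝒰.U i),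
        (s k).at' i W hk hi = (s l).at' i W hl hi := by
      intro k l i W hk hl hi
      have := congrArg (fun x : TwSec c N (U k ⊓ U l) => x.at' i W (le_inf hk hl) hi) (h k l)
      simpa only [TwSec.at_rst] using this
    have key : ∀ i (W : Opens T) (_ : W ≤ ⨆ k, U k) (hi : W ≤ 𝒰.U i), ∃ t : Sec N W, ∀ k (W' : Opens T)
        (h' : W' ≤ W) (hk : W' ≤ U k), res N h' t = (s k).at' i W' hk (h'.trans hi) := by
      intro i W hV hi
      obtain ⟨t, ht⟩ := exists_glue N (fun k => W ⊓ U k) W (by rw [← inf_iSup_eq]; exact le_inf le_rfl hV)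
        (fun k => inf_le_left) (fun k => (s k).at' i (W ⊓ U k) inf_le_right (inf_le_left.trans hi))
        (fun k l W' hk hl => by
          rw [TwSec.res_at, TwSec.res_at]
          exact hs k l i W' _ _ _)
      refine ⟨t, fun k W' h' hk => ?_⟩
      have h2 := congrArg (res N (le_inf h' hk)) (ht k)
      rw [res_res, TwSec.res_at] at h2
      exact h2
    choose f hf using key
    have uniq : ∀ (W : Opens T) (_ : W ≤ ⨆ k, U k) (a b : Sec N W),
        (∀ k (W' : Opens T) (h' : W' ≤ W) (_ : W' ≤ U k), res N h' a = res N h' b) → a = b := by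
      intro W hV a b hab
      refine eq_of_locally N (fun k => W ⊓ U k) W ?_ (fun k => inf_le_left) _ _
        fun k => hab k _ inf_le_left inf_le_right
      rw [← inf_iSup_eq]; exact le_inf le_rfl hV
    refine ⟨TwSec.mk' f (fun i W W' hV hi h' => uniq W' (h'.trans hV) _ _ fun k W'' h'' hk => ?_)
      (fun i j W hV hi hj => uniq W hV _ _ fun k W' h' hk => ?_), fun k => TwSec.ext_at fun i W hV hi => ?_⟩
    · rw [res_res, hf i W hV hi k W'' (h''.trans h') hk, hf i W' _ _ k W'' h'' hk]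
    · rw [res_smul, hf i W hV hi k W' h' hk, hf j W hV hj k W' h' hk, Coc.resO_G]
      exact TwSec.at_rel _ _ _ _ _ _ _
    · rw [TwSec.at_rst, TwSec.at_mk']
      have := hf i W (hV.trans (le_iSup U k)) hi k W le_rfl hV
      rw [res_self] at this
      exact this

/-- The twist of a module. -/
def twObj (N : Mod R) : Mod R := (twData c N).toMod

/-- Sections of the twist. -/
def toTw {N : Mod R} {V : Opens T} (s : TwSec c N V) : Sec (twObj c N) V := s

/-- Sections of the twist. -/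
def ofTw {N : Mod R} {V : Opens T} (s : Sec (twObj c N) V) : TwSec c N V := s

/-- Component of a section of the twist. -/
def cmp {N : Mod R} {V : Opens T} (s : Sec (twObj c N) V) (i : 𝒰.ι) (W : Opens T) (hV : W ≤ V) (hi : W ≤ 𝒰.U i) :
    Sec N W := (ofTw c s).at' i W hV hi

section

variable {c} {N : Mod R} {V : Opens T}

theorem cmp_toTw (s : TwSec c N V) (i : 𝒰.ι) (W : Opens T) (hV : W ≤ V) (hi : W ≤ 𝒰.U i) :
    cmp c (toTw c s) i W hV hi = s.at' i W hV hi := rfl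

theorem cmp_add (s t : Sec (twObj c N) V) (i : 𝒰.ι) (W : Opens T) (hV : W ≤ V) (hi : W ≤ 𝒰.U i) :
    cmp c (s + t) i W hV hi = cmp c s i W hV hi + cmp c t i W hV hi := TwSec.at_add _ _ _ _ _ _

theorem cmp_zero (i : 𝒰.ι) (W : Opens T) (hV : W ≤ V) (hi : W ≤ 𝒰.U i) :
    cmp c (0 : Sec (twObj c N) V) i W hV hi = 0 := TwSec.at_zero _ _ _ _

theorem cmp_smul (r : O R V) (s : Sec (twObj c N) V) (i : 𝒰.ι) (W : Opens T) (hV : W ≤ V) (hi : W ≤ 𝒰.U i) :
    cmp c (r • s) i W hV hi = resO hV r • cmp c s i W hV hi := TwSec.at_smul _ _ _ _ _ _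

theorem cmp_res {V' : Opens T} (h : V' ≤ V) (s : Sec (twObj c N) V) (i : 𝒰.ι) (W : Opens T) (hV : W ≤ V')
    (hi : W ≤ 𝒰.U i) : cmp c (res (twObj c N) h s) i W hV hi = cmp c s i W (hV.trans h) hi :=
  TwSec.at_rst h (ofTw c s) i W hV hi

theorem res_cmp (s : Sec (twObj c N) V) (i : 𝒰.ι) {W W' : Opens T} (hV : W ≤ V) (hi : W ≤ 𝒰.U i) (h : W' ≤ W) :
    res N h (cmp c s i W hV hi) = cmp c s i W' (h.trans hV) (h.trans hi) := TwSec.res_at _ _ _ _ _

theorem cmp_rel (s : Sec (twObj c N) V) (i j : 𝒰.ι) (W : Opens T) (hV : W ≤ V) (hi : W ≤ 𝒰.U i)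
    (hj : W ≤ 𝒰.U j) : cmp c s i W hV hi = c.G i j hi hj • cmp c s j W hV hj := TwSec.at_rel _ _ _ _ _ _ _

theorem tw_ext {s t : Sec (twObj c N) V}
    (h : ∀ i (W : Opens T) (hV : W ≤ V) (hi : W ≤ 𝒰.U i), cmp c s i W hV hi = cmp c t i W hV hi) : s = t :=
  TwSec.ext_at h

theorem tw_ext_loc {s t : Sec (twObj c N) V}
    (h : ∀ i (W : Opens T) (hV : W ≤ V) (_ : W ≤ 𝒰.U i), ∃ j, ∃ hj : W ≤ 𝒰.U j,
      cmp c s j W hV hj = cmp c t j W hV hj) : s = t :=
  TwSec.ext_loc h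

/-- On opens contained in `U i`, sections of the twist are sections of the module. -/
theorem tw_ext_of_le {i : 𝒰.ι} (hV : V ≤ 𝒰.U i) {s t : Sec (twObj c N) V}
    (h : cmp c s i V le_rfl hV = cmp c t i V le_rfl hV) : s = t := by
  refine tw_ext fun j W hWV hj => ?_
  rw [cmp_rel s j i W hWV hj (hWV.trans hV), cmp_rel t j i W hWV hj (hWV.trans hV)]
  have := congrArg (res N hWV) h
  rw [res_cmp, res_cmp] at this
  rw [this]

variable (c) in
/-- The section of the twist over `V ≤ U i` with given `i`-th component. -/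
def loc (i : 𝒰.ι) (hV : V ≤ 𝒰.U i) (m : Sec N V) : Sec (twObj c N) V :=
  toTw c (TwSec.mk' (fun j _ hWV hj => c.G j i hj (hWV.trans hV) • res N hWV m)
    (fun j W W' hWV hj h => by rw [res_smul, Coc.resO_G, res_res])
    (fun j k W hWV hj hk => by rw [smul_smul, Coc.G_mul]))

theorem cmp_loc (i : 𝒰.ι) (hV : V ≤ 𝒰.U i) (m : Sec N V) (j : 𝒰.ι) (W : Opens T) (hWV : W ≤ V) (hj : W ≤ 𝒰.U j) :
    cmp c (loc c i hV m) j W hWV hj = c.G j i hj (hWV.trans hV) • res N hWV m := by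
  unfold loc
  rw [cmp_toTw, TwSec.at_mk']

theorem cmp_loc_self (i : 𝒰.ι) (hV : V ≤ 𝒰.U i) (m : Sec N V) (W : Opens T) (hWV : W ≤ V) (hi : W ≤ 𝒰.U i) :
    cmp c (loc c i hV m) i W hWV hi = res N hWV m := by
  rw [cmp_loc, Coc.G_self, one_smul]

theorem loc_cmp (i : 𝒰.ι) (hV : V ≤ 𝒰.U i) (s : Sec (twObj c N) V) : loc c i hV (cmp c s i V le_rfl hV) = s :=
  tw_ext_of_le hV (by rw [cmp_loc_self, res_self])

end

/-- Constructor for sections of the twist. -/
def mkSec {N : Mod R} {V : Opens T} (f : ∀ i (W : Opens T), W ≤ V → W ≤ 𝒰.U i → Sec N W)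
    (hres : ∀ i (W W' : Opens T) (hV : W ≤ V) (hi : W ≤ 𝒰.U i) (h : W' ≤ W),
      res N h (f i W hV hi) = f i W' (h.trans hV) (h.trans hi))
    (hrel : ∀ i j (W : Opens T) (hV : W ≤ V) (hi : W ≤ 𝒰.U i) (hj : W ≤ 𝒰.U j),
      f i W hV hi = c.G i j hi hj • f j W hV hj) : Sec (twObj c N) V := toTw c (TwSec.mk' f hres hrel)

theorem cmp_mkSec {N : Mod R} {V : Opens T} (f : ∀ i (W : Opens T), W ≤ V → W ≤ 𝒰.U i → Sec N W)
    (hres : ∀ i (W W' : Opens T) (hV : W ≤ V) (hi : W ≤ 𝒰.U i) (h : W' ≤ W),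
      res N h (f i W hV hi) = f i W' (h.trans hV) (h.trans hi))
    (hrel : ∀ i j (W : Opens T) (hV : W ≤ V) (hi : W ≤ 𝒰.U i) (hj : W ≤ 𝒰.U j),
      f i W hV hi = c.G i j hi hj • f j W hV hj) (i : 𝒰.ι) (W : Opens T) (hV : W ≤ V) (hi : W ≤ 𝒰.U i) :
    cmp c (mkSec c f hres hrel) i W hV hi = f i W hV hi := by
  unfold mkSec
  rw [cmp_toTw, TwSec.at_mk']

/-- Constructor for morphisms into a twist. -/
def mkHom {M N : Mod R} (f : ∀ (V : Opens T) (_ : Sec M V) (i : 𝒰.ι) (W : Opens T), W ≤ V → W ≤ 𝒰.U i → Sec N W)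
    (hres : ∀ V m i (W W' : Opens T) (hV : W ≤ V) (hi : W ≤ 𝒰.U i) (h : W' ≤ W),
      res N h (f V m i W hV hi) = f V m i W' (h.trans hV) (h.trans hi))
    (hrel : ∀ V m i j (W : Opens T) (hV : W ≤ V) (hi : W ≤ 𝒰.U i) (hj : W ≤ 𝒰.U j),
      f V m i W hV hi = c.G i j hi hj • f V m j W hV hj)
    (hadd : ∀ V m m' i W hV hi, f V (m + m') i W hV hi = f V m i W hV hi + f V m' i W hV hi)
    (hsmul : ∀ V (r : O R V) (m : Sec M V) i W hV hi, f V (r • m) i W hV hi = resO hV r • f V m i W hV hi)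
    (hmap : ∀ V V' (h : V' ≤ V) m i W hV hi, f V' (res M h m) i W hV hi = f V m i W (hV.trans h) hi) :
    M ⟶ twObj c N :=
  homMk (fun V => AddMonoidHom.mk' (fun m => mkSec c (f V m) (hres V m) (hrel V m))
      (fun m m' => tw_ext fun i W hV hi => by rw [cmp_add, cmp_mkSec, cmp_mkSec, cmp_mkSec, hadd]))
    (fun V r m => tw_ext fun i W hV hi => by
      change cmp c (mkSec c (f V (r • m)) (hres V (r • m)) (hrel V (r • m))) i W hV hi =
        cmp c (r • mkSec c (f V m) (hres V m) (hrel V m)) i W hV hi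
      rw [cmp_smul, cmp_mkSec, cmp_mkSec, hsmul])
    (fun V V' h m => tw_ext fun i W hV hi => by
      change cmp c (mkSec c (f V' (res M h m)) (hres V' (res M h m)) (hrel V' (res M h m))) i W hV hi =
        cmp c (res (twObj c N) h (mkSec c (f V m) (hres V m) (hrel V m))) i W hV hi
      rw [cmp_res, cmp_mkSec, cmp_mkSec, hmap])

theorem cmp_mkHom {M N : Mod R} (f : ∀ (V : Opens T) (_ : Sec M V) (i : 𝒰.ι) (W : Opens T), W ≤ V → W ≤ 𝒰.U i → Sec N W)
    (hres : ∀ V m i (W W' : Opens T) (hV : W ≤ V) (hi : W ≤ 𝒰.U i) (h : W' ≤ W),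
      res N h (f V m i W hV hi) = f V m i W' (h.trans hV) (h.trans hi))
    (hrel : ∀ V m i j (W : Opens T) (hV : W ≤ V) (hi : W ≤ 𝒰.U i) (hj : W ≤ 𝒰.U j),
      f V m i W hV hi = c.G i j hi hj • f V m j W hV hj)
    (hadd : ∀ V m m' i W hV hi, f V (m + m') i W hV hi = f V m i W hV hi + f V m' i W hV hi)
    (hsmul : ∀ V (r : O R V) (m : Sec M V) i W hV hi, f V (r • m) i W hV hi = resO hV r • f V m i W hV hi)
    (hmap : ∀ V V' (h : V' ≤ V) m i W hV hi, f V' (res M h m) i W hV hi = f V m i W (hV.trans h) hi)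
    (V : Opens T) (m : Sec M V) (i : 𝒰.ι) (W : Opens T) (hV : W ≤ V) (hi : W ≤ 𝒰.U i) :
    cmp c (app (mkHom c f hres hrel hadd hsmul hmap) V m) i W hV hi = f V m i W hV hi := by
  unfold mkHom
  rw [app_homMk]
  change cmp c (mkSec c (f V m) (hres V m) (hrel V m)) i W hV hi = _
  rw [cmp_mkSec]

/-- The twist of a morphism. -/
def twMap {M N : Mod R} (φ : M ⟶ N) : twObj c M ⟶ twObj c N :=
  mkHom c (fun _ s i W hV hi => app φ W (cmp c s i W hV hi))
    (fun V s i W W' hV hi h => by rw [← app_res, res_cmp])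
    (fun V s i j W hV hi hj => by rw [cmp_rel s i j W hV hi hj, map_smul])
    (fun V s t i W hV hi => by rw [cmp_add, map_add])
    (fun V r s i W hV hi => by rw [cmp_smul, map_smul])
    (fun V V' h s i W hV hi => by rw [cmp_res])

theorem cmp_twMap {M N : Mod R} (φ : M ⟶ N) {V : Opens T} (s : Sec (twObj c M) V) (i : 𝒰.ι) (W : Opens T)
    (hV : W ≤ V) (hi : W ≤ 𝒰.U i) : cmp c (app (twMap c φ) V s) i W hV hi = app φ W (cmp c s i W hV hi) := by
  unfold twMap
  rw [cmp_mkHom]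

/-- The twisting functor. -/
def Tw : Mod R ⥤ Mod R where
  obj N := twObj c N
  map φ := twMap c φ
  map_id N := hom_ext fun V s => tw_ext fun i W hV hi => by rw [cmp_twMap, app_id, app_id]
  map_comp φ ψ := hom_ext fun V s => tw_ext fun i W hV hi => by
    rw [cmp_twMap, app_comp, app_comp, cmp_twMap, cmp_twMap]

end Groth.Agent.Gaga.H973.Tw
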