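import Groth.Agent.Gaga.H973.Tw

/-!
# The twisting functor is an equivalence; multiplication by sections

* `isIso_of_bijective`, `Cov.isIso_of`: a morphism bijective on small opens is an isomorphism;
* `twEquiv c d h : Mod R ≌ Mod R` with functor `Tw c`, inverse `Tw d` (for inverse cocycles);
* `LSec c`: families `l_i ∈ O(U_i)`, `l_i = g_ij l_j`; `mulHom ℓ N : N ⟶ Tw c N`.
-/

set_option autoImplicit false
set_option linter.unusedVariables false

open CategoryTheory TopologicalSpace Opposite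

noncomputable section

namespace Groth.Agent.Gaga.H973.TwEquiv

open Groth.Agent.Gaga.H975.ModSec Groth.Agent.Gaga.H973.Tw

variable {T : TopCat.{0}} {R : TopCat.Sheaf CommRingCat.{0} T}

theorem isIso_of_bijective {M N : Mod R} (φ : M ⟶ N) (h : ∀ V, Function.Bijective (app φ V)) : IsIso φ := by
  let e : ∀ V, Sec M V ≃ₗ[O R V] Sec N V := fun V => LinearEquiv.ofBijective (app φ V) (h V)
  have he : ∀ V (m : Sec M V), e V m = app φ V m := fun V m => rfl
  let ψ : N ⟶ M := homMk (fun V => ((e V).symm : Sec N V →ₗ[O R V] Sec M V).toAddMonoidHom)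
    (fun V r m => by
      change (e V).symm (r • m) = r • (e V).symm m
      rw [map_smul])
    (fun V W hWV m => by
      change (e W).symm (res N hWV m) = res M hWV ((e V).symm m)
      apply (e W).injective
      rw [LinearEquiv.apply_symm_apply, he, app_res, ← he, LinearEquiv.apply_symm_apply])
  refine ⟨ψ, hom_ext fun V m => ?_, hom_ext fun V m => ?_⟩
  · change (e V).symm (e V m) = m
    rw [LinearEquiv.symm_apply_apply]
  · change e V ((e V).symm m) = m
    rw [LinearEquiv.apply_symm_apply]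

/-- A morphism bijective on all opens contained in members of a cover is bijective on all opens. -/
theorem bijective_of (𝒰 : Cov T) {M N : Mod R} (φ : M ⟶ N)
    (h : ∀ i (V : Opens T), V ≤ 𝒰.U i → Function.Bijective (app φ V)) (V : Opens T) :
    Function.Bijective (app φ V) := by
  constructor
  · intro m m' hm
    refine 𝒰.eq_of M m m' fun i W hWV hWi => (h i W hWi).1 ?_
    rw [app_res, app_res, hm]
  · intro n
    have hsurj : ∀ i, ∃ m : Sec M (V ⊓ 𝒰.U i), app φ _ m = res N inf_le_left n := fun i =>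
      (h i _ inf_le_right).2 _
    choose m hm using hsurj
    obtain ⟨t, ht⟩ := exists_glue M (fun i => V ⊓ 𝒰.U i) V (𝒰.le_iSup_inf V) (fun _ => inf_le_left) m
      (fun i j W hi hj => (h i W (hi.trans inf_le_right)).1 (by
        rw [app_res, app_res, hm, hm, res_res, res_res]))
    refine ⟨t, 𝒰.eq_of N _ _ fun i W hWV hWi => ?_⟩
    have h1 := congrArg (app φ W) (congrArg (res M (le_inf hWV hWi)) (ht i))
    rw [res_res, app_res, app_res, hm, res_res] at h1
    exact h1

theorem isIso_of (𝒰 : Cov T) {M N : Mod R} (φ : M ⟶ N)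
    (h : ∀ i (V : Opens T), V ≤ 𝒰.U i → Function.Bijective (app φ V)) : IsIso φ :=
  isIso_of_bijective φ (bijective_of 𝒰 φ h)

variable {𝒰 : Cov T}

/-- Two cocycles are inverse to each other. -/
def IsInv (c d : Coc 𝒰 R) : Prop :=
  ∀ i j (W : Opens T) (hi : W ≤ 𝒰.U i) (hj : W ≤ 𝒰.U j), c.G i j hi hj * d.G i j hi hj = 1

theorem IsInv.symm {c d : Coc 𝒰 R} (h : IsInv c d) : IsInv d c := fun i j W hi hj => by
  rw [mul_comm]; exact h i j W hi hj

theorem isInv_inv (c : Coc 𝒰 R) : IsInv c c.inv := fun i j W hi hj => by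
  rw [Coc.inv_G, Coc.G_symm]

variable {c d : Coc 𝒰 R}

theorem res_loc {N : Mod R} {V W : Opens T} (i : 𝒰.ι) (hV : V ≤ 𝒰.U i) (h : W ≤ V) (m : Sec N V) :
    res (twObj c N) h (loc c i hV m) = loc c i (h.trans hV) (res N h m) :=
  tw_ext_of_le (h.trans hV) (by rw [cmp_res, cmp_loc_self, cmp_loc_self, res_res])

theorem loc_add {N : Mod R} {V : Opens T} (i : 𝒰.ι) (hV : V ≤ 𝒰.U i) (m m' : Sec N V) :
    loc c i hV (m + m') = loc c i hV m + loc c i hV m' :=
  tw_ext_of_le hV (by rw [cmp_add, cmp_loc_self, cmp_loc_self, cmp_loc_self, map_add])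

theorem loc_smul {N : Mod R} {V : Opens T} (i : 𝒰.ι) (hV : V ≤ 𝒰.U i) (r : O R V) (m : Sec N V) :
    loc c i hV (r • m) = r • loc c i hV m :=
  tw_ext_of_le hV (by rw [cmp_smul, cmp_loc_self, cmp_loc_self, res_smul])

/-- The unit `N ⟶ Tw d (Tw c N)`. -/
def unitHom (h : IsInv c d) (N : Mod R) : N ⟶ twObj d (twObj c N) :=
  mkHom d (fun V n i W hV hi => loc c i hi (res N hV n))
    (fun V n i W W' hV hi hW => by rw [res_loc, res_res])
    (fun V n i j W hV hi hj => tw_ext_of_le hi (by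
      rw [cmp_loc_self, cmp_smul, cmp_loc, resO_self, res_self, smul_smul, mul_comm, h, one_smul]))
    (fun V n n' i W hV hi => by rw [map_add, loc_add])
    (fun V r n i W hV hi => by rw [res_smul, loc_smul])
    (fun V V' hV' n i W hV hi => by rw [res_res])

theorem cmp_unitHom (h : IsInv c d) (N : Mod R) {V : Opens T} (n : Sec N V) (i : 𝒰.ι) (W : Opens T) (hV : W ≤ V)
    (hi : W ≤ 𝒰.U i) : cmp d (app (unitHom h N) V n) i W hV hi = loc c i hi (res N hV n) := by
  unfold unitHom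
  rw [cmp_mkHom]

theorem isIso_unitHom (h : IsInv c d) (N : Mod R) : IsIso (unitHom h N) := by
  refine isIso_of 𝒰 _ fun a V hV => ⟨fun n n' hn => ?_, fun t => ?_⟩
  · have h1 := congrArg (fun t => cmp c (cmp d t a V le_rfl hV) a V le_rfl hV) hn
    simp only [cmp_unitHom, cmp_loc_self, res_self] at h1
    exact h1
  · refine ⟨cmp c (cmp d t a V le_rfl hV) a V le_rfl hV, tw_ext_of_le hV ?_⟩
    rw [cmp_unitHom, res_self, loc_cmp]

/-- The unit isomorphism. -/
def unitIso (h : IsInv c d) : 𝟭 (Mod R) ≅ Tw c ⋙ Tw d :=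
  NatIso.ofComponents (fun N => @asIso _ _ _ _ (unitHom h N) (isIso_unitHom h N)) (fun {M N} φ => by
    refine hom_ext fun V m => tw_ext_of_all ?_
    intro i W hV hi
    change cmp d (app (unitHom h N) V (app φ V m)) i W hV hi =
      cmp d (app (twMap d (twMap c φ)) V (app (unitHom h M) V m)) i W hV hi
    rw [cmp_unitHom, cmp_twMap, cmp_unitHom, ← app_res]
    refine tw_ext_of_le hi ?_
    rw [cmp_loc_self, cmp_twMap, cmp_loc_self, res_self, res_self])
where
  tw_ext_of_all {c : Coc 𝒰 R} {N : Mod R} {V : Opens T} {s t : Sec (twObj c N) V}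
    (h : ∀ i (W : Opens T) (hV : W ≤ V) (hi : W ≤ 𝒰.U i), cmp c s i W hV hi = cmp c t i W hV hi) : s = t := tw_ext h

/-- Twisting is an equivalence. -/
def twEquiv (h : IsInv c d) : Mod R ≌ Mod R := CategoryTheory.Equivalence.mk (Tw c) (Tw d) (unitIso h) (unitIso h.symm).symm

instance isEquivalence_Tw (c : Coc 𝒰 R) : (Tw c).IsEquivalence :=
  inferInstanceAs (twEquiv (isInv_inv c)).functor.IsEquivalence

instance additive_Tw (c : Coc 𝒰 R) : (Tw c).Additive where
  map_add {M N} {φ ψ} := hom_ext fun V s => tw_ext fun i W hV hi => by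
    change cmp c (app (twMap c (φ + ψ)) V s) i W hV hi =
      cmp c (app (twMap c φ) V s + app (twMap c ψ) V s) i W hV hi
    rw [cmp_twMap, cmp_add, cmp_twMap, cmp_twMap]
    rfl

/-- Twisting is adjoint to the inverse twist. -/
def twAdj (h : IsInv c d) : Tw c ⊣ Tw d := (twEquiv h).toAdjunction

/-- Sections of `Tw c R`: families `l_i`. -/
structure LSec (c : Coc 𝒰 R) where
  /-- the components -/
  l : ∀ i, O R (𝒰.U i)
  rel : ∀ i j (W : Opens T) (hi : W ≤ 𝒰.U i) (hj : W ≤ 𝒰.U j), resO hi (l i) = c.G i j hi hj * resO hj (l j)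

/-- Multiplication by a section of the twisting sheaf. -/
def mulHom (ℓ : LSec c) (N : Mod R) : N ⟶ twObj c N :=
  mkHom c (fun V n i W hV hi => resO hi (ℓ.l i) • res N hV n)
    (fun V n i W W' hV hi h => by rw [res_smul, resO_resO, res_res])
    (fun V n i j W hV hi hj => by rw [smul_smul, ℓ.rel i j W hi hj])
    (fun V n n' i W hV hi => by rw [map_add, smul_add])
    (fun V r n i W hV hi => by rw [res_smul, smul_smul, smul_smul, mul_comm])
    (fun V V' h n i W hV hi => by rw [res_res])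

theorem cmp_mulHom (ℓ : LSec c) (N : Mod R) {V : Opens T} (n : Sec N V) (i : 𝒰.ι) (W : Opens T) (hV : W ≤ V)
    (hi : W ≤ 𝒰.U i) : cmp c (app (mulHom ℓ N) V n) i W hV hi = resO hi (ℓ.l i) • res N hV n := by
  unfold mulHom
  rw [cmp_mkHom]

theorem mulHom_naturality (ℓ : LSec c) {M N : Mod R} (φ : M ⟶ N) :
    φ ≫ mulHom ℓ N = mulHom ℓ M ≫ (Tw c).map φ := hom_ext fun V m => tw_ext fun i W hV hi => by
  change cmp c (app (mulHom ℓ N) V (app φ V m)) i W hV hi = cmp c (app (twMap c φ) V (app (mulHom ℓ M) V m)) i W hV hi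
  rw [cmp_mulHom, cmp_twMap, cmp_mulHom, map_smul, app_res]

/-- Multiplication by `ℓ` as a natural transformation. -/
def mulNat (ℓ : LSec c) : 𝟭 (Mod R) ⟶ Tw c where
  app N := mulHom ℓ N
  naturality _ _ φ := mulHom_naturality ℓ φ

/-- The two multiplications `Tw N ⟶ Tw (Tw N)` agree. -/
theorem twMap_mulHom (ℓ : LSec c) (N : Mod R) : (Tw c).map (mulHom ℓ N) = mulHom ℓ ((Tw c).obj N) :=
  hom_ext fun V s => tw_ext fun i W hV hi => tw_ext_of_le hi (by
    change cmp c (cmp c (app (twMap c (mulHom ℓ N)) V s) i W hV hi) i W le_rfl hi =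
      cmp c (cmp c (app (mulHom ℓ (twObj c N)) V s) i W hV hi) i W le_rfl hi
    rw [cmp_twMap, cmp_mulHom, cmp_mulHom, res_self, cmp_smul, resO_self, cmp_res])

/-- The sum of two sections. -/
instance : Add (LSec c) := ⟨fun ℓ ℓ' => ⟨fun i => ℓ.l i + ℓ'.l i, fun i j W hi hj => by
  rw [map_add, map_add, mul_add, ℓ.rel i j W hi hj, ℓ'.rel i j W hi hj]⟩⟩

theorem add_l (ℓ ℓ' : LSec c) (i : 𝒰.ι) : (ℓ + ℓ').l i = ℓ.l i + ℓ'.l i := rfl

theorem mulHom_add (ℓ ℓ' : LSec c) (N : Mod R) : mulHom (ℓ + ℓ') N = mulHom ℓ N + mulHom ℓ' N :=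
  hom_ext fun V s => tw_ext fun i W hV hi => by
    change _ = cmp c (app (mulHom ℓ N) V s + app (mulHom ℓ' N) V s) i W hV hi
    rw [cmp_mulHom, cmp_add, cmp_mulHom, cmp_mulHom, add_l, map_add, add_smul]

end Groth.Agent.Gaga.H973.TwEquiv
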