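import Groth.Agent.Gaga.H973.TwEquiv
import Groth.Agent.Gaga.H986.Nak
import Groth.Agent.Gaga.H976.FPS

/-!
# Stalks of the twist, and finite presentation

* `range_le`: the range of the multiplication by `ℓ` on stalks lies in `I` if `ℓ_i ∈ I` at the point;
* `bijective_of_isUnit`: it is bijective if `ℓ_i` is a unit at the point;
* `fpAt_tw`: the twist of a finitely presented module is finitely presented.
-/

set_option autoImplicit false
set_option linter.dupNamespace false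
set_option linter.unusedVariables false

open CategoryTheory TopologicalSpace Opposite

noncomputable section

namespace Groth.Agent.Gaga.H973.TwStalk

open Groth.Agent.Gaga.H975.ModSec Groth.Agent.Gaga.H973.Tw Groth.Agent.Gaga.H973.TwEquiv
open Groth.Agent.Gaga.H986.Stalk Groth.Agent.Gaga.H986.Nak Groth.Agent.Gaga.H976 Groth.Agent.Gaga.H976.FPS

variable {T : TopCat.{0}} {R : TopCat.Sheaf CommRingCat.{0} T} {𝒰 : Cov T} {c : Coc 𝒰 R}

/-- `ℓ · m = ℓ_i • loc_i(m)` over an open contained in `U i`. -/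
theorem app_mulHom (ℓ : LSec c) (N : Mod R) (i : 𝒰.ι) {V : Opens T} (hV : V ≤ 𝒰.U i) (m : Sec N V) :
    app (mulHom ℓ N) V m = resO hV (ℓ.l i) • loc c i hV m :=
  tw_ext_of_le hV (by rw [cmp_mulHom, cmp_smul, cmp_loc_self, resO_self])

/-- Stalk form of `app_mulHom`. -/
theorem stMap_mulHom (ℓ : LSec c) (N : Mod R) (i : 𝒰.ι) {V : Opens T} (hV : V ≤ 𝒰.U i) (x : T) (hx : x ∈ V)
    (m : Sec N V) : stMap (mulHom ℓ N) x (gm N x V hx m) =
      gmO R x (𝒰.U i) (hV hx) (ℓ.l i) • gm (twObj c N) x V hx (loc c i hV m) := by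
  rw [stMap_gm, app_mulHom ℓ N i hV, gm_smul, gmO_resO]

/-- Every germ is the germ of a section over a neighbourhood contained in `U i`. -/
theorem exists_gm_le (N : Mod R) {x : T} {U : Opens T} (hx : x ∈ U) (t : St N x) :
    ∃ (V : Opens T) (hV : V ≤ U) (hxV : x ∈ V) (m : Sec N V), gm N x V hxV m = t := by
  obtain ⟨V, hxV, m, rfl⟩ := exists_gm N x t
  exact ⟨V ⊓ U, inf_le_right, ⟨hxV, hx⟩, res N inf_le_left m, gm_res N x inf_le_left ⟨hxV, hx⟩ m⟩

theorem range_le (ℓ : LSec c) (N : Mod R) (i : 𝒰.ι) {x : T} (hx : x ∈ 𝒰.U i) (I : Ideal (StO R x))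
    (h : gmO R x (𝒰.U i) hx (ℓ.l i) ∈ I) :
    LinearMap.range (stMap (mulHom ℓ N) x) ≤ I • (⊤ : Submodule (StO R x) (St (twObj c N) x)) := by
  rintro _ ⟨t, rfl⟩
  obtain ⟨V, hV, hxV, m, rfl⟩ := exists_gm_le N hx t
  rw [stMap_mulHom ℓ N i hV]
  exact Submodule.smul_mem_smul h Submodule.mem_top

theorem bijective_of_isUnit (ℓ : LSec c) (N : Mod R) (i : 𝒰.ι) {x : T} (hx : x ∈ 𝒰.U i)
    (h : IsUnit (gmO R x (𝒰.U i) hx (ℓ.l i))) : Function.Bijective (stMap (mulHom ℓ N) x) := by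
  obtain ⟨u, hu⟩ := h
  constructor
  · rw [injective_iff_map_eq_zero]
    intro t ht
    obtain ⟨V, hV, hxV, m, rfl⟩ := exists_gm_le N hx t
    rw [stMap_mulHom ℓ N i hV, ← hu] at ht
    have h1 : gm (twObj c N) x V hxV (loc c i hV m) = 0 := by
      have := congrArg (fun t => (↑u⁻¹ : StO R x) • t) ht
      simpa [smul_smul] using this
    obtain ⟨W, hxW, hWV, h2⟩ := exists_res_eq_zero _ hxV h1
    have h3 : cmp c (res (twObj c N) hWV (loc c i hV m)) i W le_rfl (hWV.trans hV) = 0 := by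
      rw [h2, cmp_zero]
    rw [cmp_res, cmp_loc_self] at h3
    rw [← gm_res N x hWV hxW, h3, map_zero]
  · intro t
    obtain ⟨V, hV, hxV, s, hs⟩ := exists_gm_le (twObj c N) hx ((↑u⁻¹ : StO R x) • t)
    refine ⟨gm N x V hxV (cmp c s i V le_rfl hV), ?_⟩
    rw [stMap_mulHom ℓ N i hV, loc_cmp, hs, ← hu, smul_smul, Units.mul_inv, one_smul]

variable (c) in
/-- The map `loc_i` on stalks. -/
def lst (N : Mod R) (i : 𝒰.ι) {x : T} (hx : x ∈ 𝒰.U i) : St N x →ₗ[StO R x] St (twObj c N) x :=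
  desc N x (St (twObj c N) x)
    (fun V hxV => (gm (twObj c N) x (V ⊓ 𝒰.U i) ⟨hxV, hx⟩).comp
      (AddMonoidHom.mk' (fun m => loc c i inf_le_right (res N inf_le_left m))
        (fun m m' => by rw [map_add, loc_add])))
    (fun V W h hxW s => by
      change gm (twObj c N) x (W ⊓ 𝒰.U i) ⟨hxW, hx⟩ (loc c i inf_le_right (res N inf_le_left (res N h s))) =
        gm (twObj c N) x (V ⊓ 𝒰.U i) ⟨h hxW, hx⟩ (loc c i inf_le_right (res N inf_le_left s))
      rw [res_res, ← gm_res (twObj c N) x (inf_le_inf_right (𝒰.U i) h) ⟨hxW, hx⟩, res_loc, res_res])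
    (fun V hxV r s => by
      change gm (twObj c N) x (V ⊓ 𝒰.U i) ⟨hxV, hx⟩ (loc c i inf_le_right (res N inf_le_left (r • s))) =
        gmO R x V hxV r • gm (twObj c N) x (V ⊓ 𝒰.U i) ⟨hxV, hx⟩ (loc c i inf_le_right (res N inf_le_left s))
      rw [res_smul, loc_smul, gm_smul, gmO_resO])

theorem lst_gm (N : Mod R) (i : 𝒰.ι) {x : T} (hx : x ∈ 𝒰.U i) {V : Opens T} (hV : V ≤ 𝒰.U i) (hxV : x ∈ V)
    (m : Sec N V) : lst c N i hx (gm N x V hxV m) = gm (twObj c N) x V hxV (loc c i hV m) := by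
  unfold lst
  rw [desc_gm]
  change gm (twObj c N) x (V ⊓ 𝒰.U i) ⟨hxV, hx⟩ (loc c i inf_le_right (res N inf_le_left m)) = _
  rw [← res_loc i hV inf_le_left m, gm_res]

theorem lst_bijective (N : Mod R) (i : 𝒰.ι) {x : T} (hx : x ∈ 𝒰.U i) : Function.Bijective (lst c N i hx) := by
  constructor
  · rw [injective_iff_map_eq_zero]
    intro t ht
    obtain ⟨V, hV, hxV, m, rfl⟩ := exists_gm_le N hx t
    rw [lst_gm N i hx hV] at ht
    obtain ⟨W, hxW, hWV, h2⟩ := exists_res_eq_zero _ hxV ht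
    have h3 : cmp c (res (twObj c N) hWV (loc c i hV m)) i W le_rfl (hWV.trans hV) = 0 := by
      rw [h2, cmp_zero]
    rw [cmp_res, cmp_loc_self] at h3
    rw [← gm_res N x hWV hxW, h3, map_zero]
  · intro t
    obtain ⟨V, hV, hxV, s, rfl⟩ := exists_gm_le (twObj c N) hx t
    exact ⟨gm N x V hxV (cmp c s i V le_rfl hV), by rw [lst_gm N i hx hV, loc_cmp]⟩

/-- The twist of a finitely presented module is finitely presented. -/
theorem fps_tw {N : Mod R} {x : T} (h : FPS N x) : FPS (twObj c N) x := by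
  obtain ⟨W, hx, n, m, s, r, hg, hr⟩ := h
  obtain ⟨i, hi⟩ := 𝒰.cov x
  refine ⟨W ⊓ 𝒰.U i, ⟨hx, hi⟩, n, m, fun j => loc c i inf_le_right (res N inf_le_left (s j)),
    fun k j => resO inf_le_left (r k j), fun y hy => ?_, fun y hy a => ?_⟩
  · have h1 := hg y hy.1
    have h2 : (fun j => gm (twObj c N) y (W ⊓ 𝒰.U i) hy (loc c i inf_le_right (res N inf_le_left (s j)))) =
        (fun j => lst c N i hy.2 (gm N y W hy.1 (s j))) := by
      funext j
      rw [← gm_res N y (inf_le_left : W ⊓ 𝒰.U i ≤ W) hy, lst_gm N i hy.2 inf_le_right]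
    rw [h2, show (Set.range fun j => lst c N i hy.2 (gm N y W hy.1 (s j))) =
      (lst c N i hy.2) '' (Set.range fun j => gm N y W hy.1 (s j)) from by rw [← Set.range_comp]; rfl,
      ← Submodule.map_span, h1, Submodule.map_top, LinearMap.range_eq_top]
    exact (lst_bijective N i hy.2).2
  · have h1 := hr y hy.1 a
    have h2 : ∑ j, a j • gm (twObj c N) y (W ⊓ 𝒰.U i) hy (loc c i inf_le_right (res N inf_le_left (s j))) =
        lst c N i hy.2 (∑ j, a j • gm N y W hy.1 (s j)) := by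
      rw [map_sum]
      refine Finset.sum_congr rfl fun j _ => ?_
      rw [map_smul, ← gm_res N y (inf_le_left : W ⊓ 𝒰.U i ≤ W) hy, lst_gm N i hy.2 inf_le_right]
    rw [h2, map_eq_zero_iff _ (lst_bijective N i hy.2).1, h1]
    have h3 : (fun k => fun j => gmO R y (W ⊓ 𝒰.U i) hy (resO inf_le_left (r k j))) =
        (fun k => fun j => gmO R y W hy.1 (r k j)) := by
      funext k j
      rw [gmO_resO]
    rw [h3]

theorem isFinitePresentation_tw {N : Mod R} (h : N.IsFinitePresentation) :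
    (twObj c N).IsFinitePresentation :=
  (isFinitePresentation_iff _).2 fun x => fps_tw ((isFinitePresentation_iff _).1 h x)

end Groth.Agent.Gaga.H973.TwStalk
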